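import Mathlib
import Cfsg.Agent.Lib.Helper58.SuzA.Defs

/-!
# S3162 (SuzA) package (2) PkgTr

`|F| = q²`, `q = 2ⁿ`: every norm `a ^ (q + 1)` is a trace `b + b ^ q`.
Take `θ` with `θ ^ q ≠ θ`, `t = θ + θ ^ q` (`t ^ q = t`, `t ≠ 0`), `b = a ^ (q + 1) / t * θ`.
-/

set_option autoImplicit false

universe u

namespace Cfsg.Agent.Lib.Helper29.SuzA

open Cfsg.Agent.Lib.Helper58.SuzA

/-- a field with `(2 ^ n) ^ 2` elements has characteristic `2`. -/
theorem charTwo_of_card {F : Type u} [Field F] [Fintype F] (n : ℕ)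
    (hcard : Fintype.card F = (2 ^ n) ^ 2) : CharP F 2 := by
  obtain ⟨p, hp⟩ := CharP.exists F
  haveI := hp
  obtain ⟨k, hpp, hk⟩ := FiniteField.card F p
  have h2 : p ∣ 2 ^ (n * 2) := by
    have h3 : p ∣ Fintype.card F := by
      rw [hk]
      exact dvd_pow_self p k.ne_zero
    rwa [hcard, ← pow_mul] at h3
  have hp2 : p = 2 := (Nat.prime_dvd_prime_iff_eq hpp Nat.prime_two).mp (hpp.dvd_of_dvd_pow h2)
  rw [← hp2]
  exact hp

/-- `x ^ q ^ q = x` in a field with `q²` elements. -/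
theorem pow_pow_card {F : Type u} [Field F] [Fintype F] (q : ℕ)
    (hcard : Fintype.card F = q ^ 2) (x : F) : (x ^ q) ^ q = x := by
  rw [← pow_mul, ← sq, ← hcard]
  exact FiniteField.pow_card x

/-- norms are fixed by `x ↦ x ^ q`. -/
theorem norm_pow {F : Type u} [Field F] [Fintype F] (q : ℕ)
    (hcard : Fintype.card F = q ^ 2) (a : F) : (a ^ (q + 1)) ^ q = a ^ (q + 1) := by
  rw [← pow_mul, add_mul, one_mul, pow_add, pow_mul, pow_pow_card q hcard, pow_succ, mul_comm]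

/-- **(TR)** -/
theorem pkgTr : PkgTr.{u} := by
  intro F _ _ n hn hcard a
  classical
  haveI : CharP F 2 := charTwo_of_card n hcard
  haveI : Fact (Nat.Prime 2) := ⟨Nat.prime_two⟩
  have hfrob : ∀ x y : F, (x + y) ^ (2 ^ n) = x ^ (2 ^ n) + y ^ (2 ^ n) :=
    fun x y => add_pow_char_pow x y 2 n
  have hq2 : ∀ x : F, (x ^ (2 ^ n)) ^ (2 ^ n) = x := pow_pow_card (2 ^ n) hcard
  have hn0 : n ≠ 0 := by omega
  obtain ⟨θ, hθ⟩ : ∃ θ : F, θ ^ (2 ^ n) ≠ θ := by
    by_contra hcon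
    push_neg at hcon
    have hp : (Polynomial.X ^ 2 ^ n - Polynomial.X : Polynomial F) = 0 := by
      apply Polynomial.eq_zero_of_natDegree_lt_card_of_eval_eq_zero' _ Finset.univ
      · intro x _
        simp [hcon x]
      · rw [FiniteField.X_pow_card_pow_sub_X_natDegree_eq F hn0 (by norm_num), Finset.card_univ,
          hcard]
        have h2 : 2 ≤ 2 ^ n := by
          calc 2 = 2 ^ 1 := by norm_num
            _ ≤ 2 ^ n := Nat.pow_le_pow_right (by norm_num) hn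
        nlinarith
    exact FiniteField.X_pow_card_pow_sub_X_ne_zero F hn0 (by norm_num) hp
  obtain ⟨t, ht⟩ : ∃ t : F, t = θ + θ ^ (2 ^ n) := ⟨_, rfl⟩
  have ht0 : t ≠ 0 := by
    intro h
    apply hθ
    rw [ht] at h
    exact (CharTwo.add_eq_zero.mp h).symm
  have htq : t ^ (2 ^ n) = t := by
    rw [ht, hfrob, hq2, add_comm]
  have hc : (a ^ (2 ^ n + 1)) ^ (2 ^ n) = a ^ (2 ^ n + 1) := norm_pow (2 ^ n) hcard a
  refine ⟨a ^ (2 ^ n + 1) / t * θ, ?_⟩
  rw [mul_pow, div_pow, hc, htq, ← mul_add, ← ht, div_mul_cancel₀ _ ht0]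

end Cfsg.Agent.Lib.Helper29.SuzA
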