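import Mathlib
import Cfsg.Agent.Lib.Helper58.SuzA.Defs

/-!
# S3162 (SuzA) package (7) PkgTransport

A bijection of the coordinate set respecting the product is induced by an automorphism.
-/

set_option autoImplicit false

universe u v

namespace Cfsg.Agent.Lib.Helper29.SuzA

open Cfsg.Agent.Lib.Helper58.SuzA

/-- **(TRANSPORT)** -/
theorem pkgTransport : PkgTransport.{u, v} := by
  intro F _ q T _ C f g hf hg hgf hfg hmul
  -- the relation holds at the coordinates of every element
  have hrel : ∀ x : T, (C.c x).2 + (C.c x).2 ^ q = (C.c x).1 ^ (q + 1) :=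
    fun x => (C.range (C.c x).1 (C.c x).2).mp ⟨x, rfl⟩
  have hex : ∀ x : T, ∃ y : T, C.c y = f (C.c x) := by
    intro x
    have h := hf (C.c x).1 (C.c x).2 (hrel x)
    exact (C.range _ _).mpr h
  have hex' : ∀ x : T, ∃ y : T, C.c y = g (C.c x) := by
    intro x
    have h := hg (C.c x).1 (C.c x).2 (hrel x)
    exact (C.range _ _).mpr h
  choose φ hφ using hex
  choose ψ hψ using hex'
  have h1 : ∀ x, ψ (φ x) = x := by
    intro x
    apply C.inj
    rw [hψ, hφ]
    exact hgf (C.c x).1 (C.c x).2 (hrel x)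
  have h2 : ∀ x, φ (ψ x) = x := by
    intro x
    apply C.inj
    rw [hφ, hψ]
    exact hfg (C.c x).1 (C.c x).2 (hrel x)
  have h3 : ∀ x y, φ (x * y) = φ x * φ y := by
    intro x y
    apply C.inj
    rw [hφ, C.mul, C.mul, hφ, hφ]
    exact hmul (C.c x).1 (C.c x).2 (C.c y).1 (C.c y).2 (hrel x) (hrel y)
  exact ⟨{ toFun := φ, invFun := ψ, left_inv := h1, right_inv := h2, map_mul' := h3 }, hφ⟩

end Cfsg.Agent.Lib.Helper29.SuzA
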