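import Mathlib
import Cfsg.Agent.Lib.Helper58.SuzA.Defs
import Cfsg.Agent.Lib.Helper29.SuzA.Tr
import Cfsg.Agent.Lib.Helper29.SuzA.Transport

/-!
# S3162 (SuzA) package (9) PkgImage

Every `a ↦ l * ρ a` is induced by an automorphism: transport
`f (a, b) = (l * ρ a, l ^ (q + 1) * ρ b)`.
-/

set_option autoImplicit false

universe u v

namespace Cfsg.Agent.Lib.Helper29.SuzA

open Cfsg.Agent.Lib.Helper58.SuzA

/-- **(IMAGE)** -/
theorem pkgImage : PkgImage.{u, v} := by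
  intro F _ _ n hn hcard
  generalize 2 ^ n = q at hcard ⊢
  intro T _ C l hl ρ
  have hN : (l ^ (q + 1)) ^ q = l ^ (q + 1) := norm_pow q hcard l
  have hN0 : l ^ (q + 1) ≠ 0 := pow_ne_zero _ hl
  have hNi : ((l ^ (q + 1))⁻¹) ^ q = (l ^ (q + 1))⁻¹ := by rw [inv_pow, hN]
  obtain ⟨φ, hφ⟩ := pkgTransport F q T C
    (fun x => (l * ρ x.1, l ^ (q + 1) * ρ x.2))
    (fun x => (ρ.symm (l⁻¹ * x.1), ρ.symm ((l ^ (q + 1))⁻¹ * x.2)))
    (by
      intro a b h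
      show l ^ (q + 1) * ρ b + (l ^ (q + 1) * ρ b) ^ q = (l * ρ a) ^ (q + 1)
      rw [mul_pow, hN, ← map_pow, ← mul_add, ← map_add, h, map_pow, mul_pow])
    (by
      intro a b h
      show ρ.symm ((l ^ (q + 1))⁻¹ * b) + (ρ.symm ((l ^ (q + 1))⁻¹ * b)) ^ q =
        (ρ.symm (l⁻¹ * a)) ^ (q + 1)
      rw [← map_pow, ← map_add, mul_pow, hNi, ← mul_add, h, ← map_pow, mul_pow, inv_pow])
    (by
      intro a b _
      show (ρ.symm (l⁻¹ * (l * ρ a)), ρ.symm ((l ^ (q + 1))⁻¹ * (l ^ (q + 1) * ρ b))) = (a, b)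
      rw [inv_mul_cancel_left₀ hl, inv_mul_cancel_left₀ hN0, RingEquiv.symm_apply_apply,
        RingEquiv.symm_apply_apply])
    (by
      intro a b _
      show (l * ρ (ρ.symm (l⁻¹ * a)), l ^ (q + 1) * ρ (ρ.symm ((l ^ (q + 1))⁻¹ * b))) = (a, b)
      rw [RingEquiv.apply_symm_apply, RingEquiv.apply_symm_apply, mul_inv_cancel_left₀ hl,
        mul_inv_cancel_left₀ hN0])
    (by
      intro a b a' b' _ _
      show (l * ρ (a + a'), l ^ (q + 1) * ρ (b + b' + a ^ q * a')) =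
        (l * ρ a + l * ρ a', l ^ (q + 1) * ρ b + l ^ (q + 1) * ρ b' + (l * ρ a) ^ q * (l * ρ a'))
      rw [map_add, map_add, map_add, map_mul, map_pow]
      congr 1
      · ring
      · ring)
  refine ⟨φ, fun x => ?_⟩
  rw [hφ]

end Cfsg.Agent.Lib.Helper29.SuzA
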